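import Cfsg.Agent.H883.BR.Fam
import Cfsg.Prelude.Def_Classical

/-!
# HUB BR: the concrete objects for the families `Ω(Q)` (helper748)

* `Om Q` : `Omega F Q`; `rho Q K : Om Q →* End (ι → K)`, `BK Q K` the polar form over the extension `K`;
* `wdg B u v : x ↦ B v x • u - B u x • v`;
* `so B` (skew), `lam B` (self-adjoint and alternating), `lam0 B := span {wdg B u v | B u v = 0}`.
-/

set_option autoImplicit false
set_option linter.unusedSectionVars false

namespace Cfsg.Agent.H748.BR

open Cfsg Cfsg.Agent.H883.BR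

/-! ### abstract -/

section abs

variable {K : Type*} [Field K] {V : Type*} [AddCommGroup V] [Module K V] (B : LinearMap.BilinForm K V)

/-- the rank two element `u ∧ v` : `x ↦ B v x • u - B u x • v` -/
def wdg (u v : V) : Module.End K V := (B v).smulRight u - (B u).smulRight v

theorem wdg_apply (u v x : V) : wdg B u v x = B v x • u - B u x • v := rfl

/-- the skew-adjoint endomorphisms -/
def so : Submodule K (Module.End K V) where
  carrier := {X | ∀ v w, B (X v) w = - B v (X w)}
  zero_mem' := fun v w => by simp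
  add_mem' := fun {X Y} hX hY v w => by
    change B (X v + Y v) w = - B v (X w + Y w)
    rw [map_add, map_add, LinearMap.add_apply, hX, hY, neg_add]
  smul_mem' := fun c X hX v w => by
    change B (c • X v) w = - B v (c • X w)
    rw [map_smul, map_smul, LinearMap.smul_apply, hX, smul_eq_mul, smul_eq_mul, mul_neg]

theorem mem_so {X : Module.End K V} : X ∈ so B ↔ ∀ v w, B (X v) w = - B v (X w) := Iff.rfl

/-- the self-adjoint alternating endomorphisms (for characteristic 2) -/
def lam : Submodule K (Module.End K V) where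
  carrier := {X | (∀ v w, B (X v) w = B v (X w)) ∧ ∀ v, B (X v) v = 0}
  zero_mem' := ⟨fun v w => by simp, fun v => by simp⟩
  add_mem' := fun {X Y} hX hY => ⟨fun v w => by
    change B (X v + Y v) w = B v (X w + Y w)
    rw [map_add, map_add, LinearMap.add_apply, hX.1, hY.1], fun v => by
    change B (X v + Y v) v = 0
    rw [map_add, LinearMap.add_apply, hX.2, hY.2, add_zero]⟩
  smul_mem' := fun c X hX => ⟨fun v w => by
    change B (c • X v) w = B v (c • X w)
    rw [map_smul, map_smul, LinearMap.smul_apply, hX.1], fun v => by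
    change B (c • X v) v = 0
    rw [map_smul, LinearMap.smul_apply, hX.2, smul_zero]⟩

theorem mem_lam {X : Module.End K V} : X ∈ lam B ↔ (∀ v w, B (X v) w = B v (X w)) ∧ ∀ v, B (X v) v = 0 := Iff.rfl

/-- the span of the `u ∧ v`, `B u v = 0` -/
def lam0 : Submodule K (Module.End K V) := Submodule.span K {X | ∃ u v, B u v = 0 ∧ wdg B u v = X}

end abs

/-! ### concrete -/

section conc

variable {F : Type} [Field F] {ι : Type} [Fintype ι] [DecidableEq ι] (Q : QuadraticForm F (ι → F))
  (K : Type) [Field K] [Algebra F K]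

/-- `Ω(Q)` -/
abbrev Om : Type := Omega F (fun v : ι → F => Q v)

/-- the matrix over `F` -/
def matF : Om Q →* Matrix ι ι F :=
  (Units.coeHom (Matrix ι ι F)).comp ((isometryGroup F fun v => Q v).subtype.comp (Omega F fun v => Q v).subtype)

/-- the matrix over `K` -/
def matK : Om Q →* Matrix ι ι K :=
  ((algebraMap F K).mapMatrix : Matrix ι ι F →+* Matrix ι ι K).toMonoidHom.comp (matF Q)

/-- **the natural representation over `K`** -/
def rho : Om Q →* Module.End K (ι → K) :=
  ((Matrix.toLinAlgEquiv' : Matrix ι ι K ≃ₐ[K] Module.End K (ι → K)).toAlgHom.toRingHom.toMonoidHom).comp (matK Q K)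

/-- the matrix of the polar form -/
def gram : Matrix ι ι F := Matrix.of fun i j => QuadraticMap.polar Q (Pi.single i 1) (Pi.single j 1)

/-- the polar form over `K` -/
noncomputable def BK : LinearMap.BilinForm K (ι → K) := Matrix.toBilin' ((gram Q).map (algebraMap F K))

/-- vectors over `F` -/
def vK (v : ι → F) : ι → K := fun i => algebraMap F K (v i)

variable {Q K}

theorem rho_apply (g : Om Q) (v : ι → K) : rho Q K g v = (matK Q K g).mulVec v := rfl

theorem matK_apply (g : Om Q) : matK Q K g = (matF Q g).map (algebraMap F K) := rfl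

theorem matF_isom (g : Om Q) (v : ι → F) : Q ((matF Q g).mulVec v) = Q v := g.1.2 v v

theorem matF_inj : Function.Injective (matF Q) := by
  intro a b h
  exact Subtype.ext (Subtype.ext (Units.ext h))

theorem matK_inj : Function.Injective (matK Q K) := by
  intro a b h
  apply matF_inj
  exact Matrix.map_injective (algebraMap F K).injective h

theorem rho_inj : Function.Injective (rho Q K) := by
  intro a b h
  apply matK_inj (K := K)
  exact (Matrix.toLinAlgEquiv' : Matrix ι ι K ≃ₐ[K] Module.End K (ι → K)).injective h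

theorem rho_vK (g : Om Q) (v : ι → F) : rho Q K g (vK K v) = vK K ((matF Q g).mulVec v) := by
  rw [rho_apply, matK_apply]
  funext i
  exact (RingHom.map_mulVec (algebraMap F K) (matF Q g) v i).symm

theorem vK_add (v w : ι → F) : vK K (v + w) = vK K v + vK K w := funext fun _ => map_add _ _ _

theorem vK_smul (c : F) (v : ι → F) : vK K (c • v) = algebraMap F K c • vK K v := funext fun _ => map_mul _ _ _

theorem vK_zero : vK K (0 : ι → F) = 0 := funext fun _ => map_zero _

theorem vK_single (i : ι) (c : F) : vK K (Pi.single i c : ι → F) = Pi.single i (algebraMap F K c) := by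
  funext j
  by_cases h : j = i
  · subst h; simp [vK]
  · simp [vK, h]

theorem vK_inj : Function.Injective (vK K : (ι → F) → ι → K) := by
  intro a b h
  funext i
  exact (algebraMap F K).injective (congrFun h i)

theorem BK_single (i j : ι) : BK Q K (Pi.single i 1) (Pi.single j 1) =
    algebraMap F K (QuadraticMap.polar Q (Pi.single i 1) (Pi.single j 1)) := by
  rw [BK, Matrix.toBilin'_single]
  rfl

theorem BK_apply (v w : ι → K) : BK Q K v w = ∑ i, ∑ j, v i * algebraMap F K (gram Q i j) * w j := by
  rw [BK, Matrix.toBilin'_apply]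
  rfl

theorem polar_eq_sum (v w : ι → F) : QuadraticMap.polar Q v w = ∑ i, ∑ j, v i * gram Q i j * w j := by
  have h : QuadraticMap.polar Q v w = (QuadraticMap.polarBilin Q) v w := rfl
  have hB : Matrix.toBilin' (gram Q) = QuadraticMap.polarBilin Q := by
    apply LinearMap.BilinForm.toMatrix'.injective
    rw [LinearMap.BilinForm.toMatrix'_toBilin']
    ext i j
    rw [LinearMap.BilinForm.toMatrix'_apply]
    rfl
  rw [h, ← hB, Matrix.toBilin'_apply]

theorem BK_vK (v w : ι → F) : BK Q K (vK K v) (vK K w) = algebraMap F K (QuadraticMap.polar Q v w) := by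
  rw [BK_apply, polar_eq_sum, map_sum]
  refine Finset.sum_congr rfl fun i _ => ?_
  rw [map_sum]
  refine Finset.sum_congr rfl fun j _ => ?_
  rw [map_mul, map_mul]
  rfl

theorem gram_symm (i j : ι) : gram Q i j = gram Q j i := QuadraticMap.polar_comm _ _ _

theorem BK_comm (v w : ι → K) : BK Q K v w = BK Q K w v := by
  rw [BK_apply, BK_apply, Finset.sum_comm]
  refine Finset.sum_congr rfl fun i _ => Finset.sum_congr rfl fun j _ => ?_
  rw [gram_symm]
  ring

theorem polar_matF (g : Om Q) (v w : ι → F) :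
    QuadraticMap.polar Q ((matF Q g).mulVec v) ((matF Q g).mulVec w) = QuadraticMap.polar Q v w := by
  rw [QuadraticMap.polar, QuadraticMap.polar, ← Matrix.mulVec_add, matF_isom, matF_isom, matF_isom]

theorem BK_ext {C D : LinearMap.BilinForm K (ι → K)}
    (h : ∀ i j, C (Pi.single i 1) (Pi.single j 1) = D (Pi.single i 1) (Pi.single j 1)) : C = D := by
  apply LinearMap.BilinForm.toMatrix'.injective
  ext i j
  rw [LinearMap.BilinForm.toMatrix'_apply, LinearMap.BilinForm.toMatrix'_apply]
  exact h i j

/-- `BK` is invariant -/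
theorem BK_rho (g : Om Q) (v w : ι → K) : BK Q K (rho Q K g v) (rho Q K g w) = BK Q K v w := by
  have h : (BK Q K).compl₁₂ (rho Q K g) (rho Q K g) = BK Q K := by
    apply BK_ext
    intro i j
    have e1 : ∀ i : ι, (Pi.single i 1 : ι → K) = vK K (Pi.single i (1 : F)) := fun i => by
      rw [vK_single, map_one]
    rw [LinearMap.compl₁₂_apply, e1, e1, rho_vK, rho_vK, BK_vK, polar_matF, BK_vK]
  exact congrArg (fun C : LinearMap.BilinForm K (ι → K) => C v w) h

/-- `BK` is nondegenerate -/
theorem BK_nondeg (hQ : ∀ v, (∀ w, QuadraticMap.polar Q v w = 0) → v = 0) {v : ι → K}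
    (h : ∀ w, BK Q K v w = 0) : v = 0 := by
  have hdet : (gram Q).det ≠ 0 := by
    intro h0
    obtain ⟨x, hx, hx0⟩ := Matrix.exists_mulVec_eq_zero_iff.2 h0
    apply hx
    apply hQ
    intro w
    rw [QuadraticMap.polar_comm, polar_eq_sum]
    refine Finset.sum_eq_zero fun i _ => ?_
    have h1 := congrFun hx0 i
    rw [Matrix.mulVec, dotProduct] at h1
    calc ∑ j, w i * gram Q i j * x j = w i * ∑ j, gram Q i j * x j := by
          rw [Finset.mul_sum]
          exact Finset.sum_congr rfl fun j _ => by ring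
      _ = 0 := by rw [h1]; simp
  have hdet' : ((gram Q).map (algebraMap F K)).det ≠ 0 := by
    rw [← RingHom.mapMatrix_apply, ← RingHom.map_det]
    exact fun h0 => hdet ((map_eq_zero _).1 h0)
  by_contra hv
  apply hdet'
  rw [← Matrix.exists_vecMul_eq_zero_iff]
  refine ⟨v, hv, ?_⟩
  funext j
  have h1 := h (Pi.single j 1)
  rw [BK_apply] at h1
  rw [Matrix.vecMul, dotProduct]
  simpa [Matrix.map_apply, Pi.single_apply] using h1

theorem rho_inv_left (g : Om Q) (v : ι → K) : rho Q K g⁻¹ (rho Q K g v) = v := by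
  rw [← Module.End.mul_apply, ← map_mul, inv_mul_cancel, map_one, Module.End.one_apply]

theorem rho_inv_right (g : Om Q) (v : ι → K) : rho Q K g (rho Q K g⁻¹ v) = v := by
  rw [← Module.End.mul_apply, ← map_mul, mul_inv_cancel, map_one, Module.End.one_apply]

theorem BK_adj (g : Om Q) (v w : ι → K) : BK Q K v (rho Q K g w) = BK Q K (rho Q K g⁻¹ v) w := by
  conv_lhs => rw [← rho_inv_right g v]
  exact BK_rho g _ _

/-- conjugation of `u ∧ v` -/
theorem ad_wdg (g : Om Q) (u v : ι → K) :
    ad (rho Q K) g (wdg (BK Q K) u v) = wdg (BK Q K) (rho Q K g u) (rho Q K g v) := by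
  refine LinearMap.ext fun x => ?_
  rw [ad_apply, Module.End.mul_apply, Module.End.mul_apply, wdg_apply, wdg_apply, map_sub, map_smul, map_smul]
  have h : ∀ a, BK Q K (rho Q K g a) x = BK Q K a (rho Q K g⁻¹ x) := by
    intro a
    rw [BK_adj, inv_inv]
  rw [h, h]

theorem so_inv : Inv (ad (rho Q K)) ⊤ (so (BK Q K)) := by
  intro g _ X hX v w
  rw [ad_apply]
  change BK Q K (rho Q K g (X (rho Q K g⁻¹ v))) w = - BK Q K v (rho Q K g (X (rho Q K g⁻¹ w)))
  rw [BK_adj, ← BK_rho g⁻¹, rho_inv_left, hX]

theorem lam_inv : Inv (ad (rho Q K)) ⊤ (lam (BK Q K)) := by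
  intro g _ X hX
  refine ⟨fun v w => ?_, fun v => ?_⟩
  · rw [ad_apply]
    change BK Q K (rho Q K g (X (rho Q K g⁻¹ v))) w = BK Q K v (rho Q K g (X (rho Q K g⁻¹ w)))
    rw [BK_adj, ← BK_rho g⁻¹, rho_inv_left, hX.1]
  · rw [ad_apply]
    change BK Q K (rho Q K g (X (rho Q K g⁻¹ v))) v = 0
    rw [← BK_rho g⁻¹, rho_inv_left, hX.2]

theorem lam0_inv : Inv (ad (rho Q K)) ⊤ (lam0 (BK Q K)) := by
  intro g _ X hX
  have h : lam0 (BK Q K) ≤ (lam0 (BK Q K)).comap (ad (rho Q K) g) := by
    rw [lam0, Submodule.span_le]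
    rintro _ ⟨u, v, huv, rfl⟩
    rw [SetLike.mem_coe, Submodule.mem_comap, ad_wdg]
    exact Submodule.subset_span ⟨_, _, by rw [BK_rho, huv], rfl⟩
  exact h hX

end conc

end Cfsg.Agent.H748.BR
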