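import Cfsg.Agent.H748.BR.OmDefs
import Cfsg.Agent.H178.BR.TrF
import Cfsg.Agent.H212.BR.Gen

/-!
# HUB BR: the coordinatewise Frobenius on `ι → K` and on `End` (helper748), both parities
-/

set_option autoImplicit false
set_option linter.unusedSectionVars false

namespace Cfsg.Agent.H748.BR

open Cfsg Cfsg.Agent.H883.BR

section fr

variable {K : Type} [Field K] {ι : Type} [Fintype ι] [DecidableEq ι] (τ : K ≃+* K)

/-- coordinatewise `τ` -/
def frV : (ι → K) →+ (ι → K) where
  toFun v i := τ (v i)
  map_zero' := funext fun _ => map_zero τ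
  map_add' v w := funext fun _ => map_add τ _ _

theorem frV_apply (v : ι → K) (i : ι) : frV τ v i = τ (v i) := rfl

theorem frV_smul (c : K) (v : ι → K) : frV τ (c • v) = τ c • frV τ v := funext fun _ => map_mul τ _ _

theorem frV_symm (v : ι → K) : frV τ (frV τ.symm v) = v := funext fun _ => τ.apply_symm_apply _

theorem frV_symm' (v : ι → K) : frV τ.symm (frV τ v) = v := funext fun _ => τ.symm_apply_apply _

/-- `X ↦ τ X τ⁻¹` -/
def frE : Module.End K (ι → K) →+ Module.End K (ι → K) where
  toFun X :=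
    { toFun := fun v => frV τ (X (frV τ.symm v))
      map_add' := fun v w => by rw [map_add, map_add, map_add]
      map_smul' := fun c v => by
        rw [frV_smul, map_smul, frV_smul, RingEquiv.apply_symm_apply, RingHom.id_apply] }
  map_zero' := LinearMap.ext fun v => by
    change frV τ ((0 : Module.End K (ι → K)) (frV τ.symm v)) = 0
    rw [LinearMap.zero_apply, map_zero]
  map_add' X Y := LinearMap.ext fun v => by
    change frV τ ((X + Y) (frV τ.symm v)) = frV τ (X (frV τ.symm v)) + frV τ (Y (frV τ.symm v))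
    rw [LinearMap.add_apply, map_add]

theorem frE_apply (X : Module.End K (ι → K)) (v : ι → K) : frE τ X v = frV τ (X (frV τ.symm v)) := rfl

theorem frE_smul (c : K) (X : Module.End K (ι → K)) : frE τ (c • X) = τ c • frE τ X := by
  refine LinearMap.ext fun v => ?_
  rw [frE_apply, LinearMap.smul_apply, frV_smul, LinearMap.smul_apply, frE_apply]

theorem frE_mul (X Y : Module.End K (ι → K)) : frE τ (X * Y) = frE τ X * frE τ Y := by
  refine LinearMap.ext fun v => ?_
  rw [frE_apply, Module.End.mul_apply, Module.End.mul_apply, frE_apply, frE_apply, frV_symm']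

theorem frE_one : frE τ (1 : Module.End K (ι → K)) = 1 := by
  refine LinearMap.ext fun v => ?_
  rw [frE_apply, Module.End.one_apply, frV_symm, Module.End.one_apply]

theorem frE_injective : Function.Injective (frE τ : Module.End K (ι → K) →+ Module.End K (ι → K)) := by
  intro X Y h
  refine LinearMap.ext fun v => ?_
  have h1 := LinearMap.congr_fun h (frV τ v)
  rw [frE_apply, frE_apply, frV_symm'] at h1
  have h2 := congrArg (frV τ.symm) h1
  rwa [frV_symm', frV_symm'] at h2

theorem frE_symm (X : Module.End K (ι → K)) : frE τ (frE τ.symm X) = X := by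
  refine LinearMap.ext fun v => ?_
  rw [frE_apply, frE_apply, frV_symm]
  congr 1
  exact frV_symm τ v

end fr

section conc

variable {F : Type} [Field F] {ι : Type} [Fintype ι] [DecidableEq ι] {Q : QuadraticForm F (ι → F)}
  {K : Type} [Field K] [Algebra F K] {τ : K ≃+* K} (hτ : ∀ c : F, τ (algebraMap F K c) = algebraMap F K c)

include hτ

theorem fix_symm (c : F) : τ.symm (algebraMap F K c) = algebraMap F K c := by
  rw [RingEquiv.symm_apply_eq, hτ]

theorem frV_vK (v : ι → F) : frV τ (vK K v) = vK K v := funext fun _ => hτ _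

/-- `τ` commutes with the group -/
theorem frV_rho (g : Om Q) (v : ι → K) : frV τ (rho Q K g v) = rho Q K g (frV τ v) := by
  funext i
  rw [frV_apply, rho_apply, rho_apply, Matrix.mulVec, Matrix.mulVec, dotProduct, dotProduct, map_sum]
  refine Finset.sum_congr rfl fun j _ => ?_
  rw [map_mul, matK_apply, Matrix.map_apply, hτ, frV_apply]

theorem frE_rho (g : Om Q) : frE τ (rho Q K g) = rho Q K g := by
  refine LinearMap.ext fun v => ?_
  rw [frE_apply, frV_rho hτ, frV_symm]

theorem frE_ad (g : Om Q) (X : Module.End K (ι → K)) : frE τ (ad (rho Q K) g X) = ad (rho Q K) g (frE τ X) := by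
  rw [ad_apply, ad_apply, frE_mul, frE_mul, frE_rho hτ, frE_rho hτ]

theorem BK_frV (v w : ι → K) : BK Q K (frV τ v) (frV τ w) = τ (BK Q K v w) := by
  rw [BK_apply, BK_apply, map_sum]
  refine Finset.sum_congr rfl fun i _ => ?_
  rw [map_sum]
  refine Finset.sum_congr rfl fun j _ => ?_
  rw [map_mul, map_mul, hτ]
  rfl

theorem BK_frV_left (v w : ι → K) : BK Q K (frV τ v) w = τ (BK Q K v (frV τ.symm w)) := by
  rw [← BK_frV hτ, frV_symm]

theorem BK_frV_right (v w : ι → K) : BK Q K v (frV τ w) = τ (BK Q K (frV τ.symm v) w) := by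
  rw [← BK_frV hτ, frV_symm]

theorem frE_so {X : Module.End K (ι → K)} (hX : X ∈ so (BK Q K)) : frE τ X ∈ so (BK Q K) := by
  intro v w
  rw [frE_apply, frE_apply, BK_frV_left hτ, BK_frV_right hτ, hX, map_neg]

theorem frE_lam {X : Module.End K (ι → K)} (hX : X ∈ lam (BK Q K)) : frE τ X ∈ lam (BK Q K) := by
  refine ⟨fun v w => ?_, fun v => ?_⟩
  · rw [frE_apply, frE_apply, BK_frV_left hτ, BK_frV_right hτ, hX.1]
  · rw [frE_apply, BK_frV_left hτ, hX.2, map_zero]

theorem frE_wdg (u v : ι → K) : frE τ (wdg (BK Q K) u v) = wdg (BK Q K) (frV τ u) (frV τ v) := by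
  refine LinearMap.ext fun x => ?_
  rw [frE_apply, wdg_apply, wdg_apply, map_sub, frV_smul, frV_smul, BK_frV_left hτ, BK_frV_left hτ]

theorem frE_lam0 {X : Module.End K (ι → K)} (hX : X ∈ lam0 (BK Q K)) : frE τ X ∈ lam0 (BK Q K) := by
  induction hX using Submodule.span_induction with
  | mem X hX =>
    obtain ⟨u, v, huv, rfl⟩ := hX
    rw [frE_wdg hτ]
    exact Submodule.subset_span ⟨_, _, by rw [BK_frV hτ, huv, map_zero], rfl⟩
  | zero => rw [map_zero]; exact zero_mem _
  | add X Y _ _ hX hY => rw [map_add]; exact add_mem hX hY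
  | smul c X _ hX => rw [frE_smul]; exact Submodule.smul_mem _ _ hX

end conc

/-- the Frobenius automorphism `x ↦ x ^ |F|` of the algebraic closure -/
theorem exists_frob (F : Type) [Field F] [Finite F] : ∃ τ : AlgebraicClosure F ≃+* AlgebraicClosure F,
    (∀ c, τ c = c ^ Nat.card (H212.BR.base F)) ∧
      ∀ c : F, τ (algebraMap F (AlgebraicClosure F) c) = algebraMap F (AlgebraicClosure F) c := by
  have := Fintype.ofFinite F
  obtain ⟨p, hc⟩ := CharP.exists F
  have hp : Fact p.Prime := ⟨CharP.char_is_prime F p⟩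
  have := H212.BR.charP_closure F p
  obtain ⟨n, -, hn⟩ := FiniteField.card F p
  have hcard : Nat.card (H212.BR.base F) = p ^ (n : ℕ) := by
    rw [H212.BR.card_base, Nat.card_eq_fintype_card, hn]
  refine ⟨iterateFrobeniusEquiv (AlgebraicClosure F) p n, fun c => ?_, fun c => ?_⟩
  · rw [hcard]; exact iterateFrobeniusEquiv_def _ _ _ _
  · rw [iterateFrobeniusEquiv_def, ← hn, ← map_pow, FiniteField.pow_card]

section app

variable {F : Type} [Field F] [Finite F] {ι : Type} [Fintype ι] [DecidableEq ι] {Q : QuadraticForm F (ι → F)}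

/-- **trF** for a subrepresentation `S` of `ad ρ` -/
theorem trace_sub {S : Submodule (AlgebraicClosure F) (Module.End (AlgebraicClosure F) (ι → AlgebraicClosure F))}
    (hS : ∀ τ : AlgebraicClosure F ≃+* AlgebraicClosure F,
      (∀ c : F, τ (algebraMap F (AlgebraicClosure F) c) = algebraMap F (AlgebraicClosure F) c) → ∀ X ∈ S, frE τ X ∈ S)
    (g : Om Q) (hg : ∀ X ∈ S, ad (rho Q (AlgebraicClosure F)) g X ∈ S) {f : Module.End (AlgebraicClosure F) S}
    (hf : ∀ X : S, (f X : Module.End (AlgebraicClosure F) (ι → AlgebraicClosure F)) = ad (rho Q (AlgebraicClosure F)) g X) :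
    LinearMap.trace (AlgebraicClosure F) S f ∈ H212.BR.base F := by
  obtain ⟨τ, h1, h2⟩ := exists_frob F
  have := H212.BR.finite_base F
  refine H178.BR.trace_mem_sub τ h1 S (frE τ) (frE_smul τ) (fun X hX => hS τ h2 X hX) LinearMap.id
    (fun x => ⟨x, rfl⟩) (fun X => ?_) (A := ad (rho Q (AlgebraicClosure F)) g) hg (fun X _ => frE_ad h2 g X)
    (fun X => Subtype.ext (hf X))
  rw [LinearMap.id_apply, LinearMap.id_apply]
  constructor
  · intro h
    have h3 : frE τ (X : Module.End (AlgebraicClosure F) (ι → AlgebraicClosure F)) = 0 := congrArg Subtype.val h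
    apply Subtype.ext
    exact frE_injective τ (h3.trans (map_zero _).symm)
  · rintro rfl
    apply Subtype.ext
    exact map_zero (frE τ)

/-- **trF** for a subquotient of `ad ρ` : `π : S → W` onto, with kernel the scalars of `S` -/
theorem trace_quot {S : Submodule (AlgebraicClosure F) (Module.End (AlgebraicClosure F) (ι → AlgebraicClosure F))}
    (hS : ∀ τ : AlgebraicClosure F ≃+* AlgebraicClosure F,
      (∀ c : F, τ (algebraMap F (AlgebraicClosure F) c) = algebraMap F (AlgebraicClosure F) c) → ∀ X ∈ S, frE τ X ∈ S)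
    {W : Type*} [AddCommGroup W] [Module (AlgebraicClosure F) W] [FiniteDimensional (AlgebraicClosure F) W]
    (π : S →ₗ[AlgebraicClosure F] W) (hπ : Function.Surjective π)
    (hk : ∀ X : S, π X = 0 ↔ ∃ c : AlgebraicClosure F,
      (X : Module.End (AlgebraicClosure F) (ι → AlgebraicClosure F)) = c • 1)
    (g : Om Q) (hg : ∀ X ∈ S, ad (rho Q (AlgebraicClosure F)) g X ∈ S) {f : Module.End (AlgebraicClosure F) W}
    (hf : ∀ X : S, f (π X) = π ⟨ad (rho Q (AlgebraicClosure F)) g X, hg X X.2⟩) :
    LinearMap.trace (AlgebraicClosure F) W f ∈ H212.BR.base F := by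
  obtain ⟨τ, h1, h2⟩ := exists_frob F
  have := H212.BR.finite_base F
  refine H178.BR.trace_mem_sub τ h1 S (frE τ) (frE_smul τ) (fun X hX => hS τ h2 X hX) π hπ (fun X => ?_)
    (A := ad (rho Q (AlgebraicClosure F)) g) hg (fun X _ => frE_ad h2 g X) hf
  rw [hk, hk]
  constructor
  · rintro ⟨c, hc⟩
    refine ⟨τ.symm c, frE_injective τ ?_⟩
    rw [frE_smul, frE_one, RingEquiv.apply_symm_apply]
    exact hc
  · rintro ⟨c, hc⟩
    refine ⟨τ c, ?_⟩
    change frE τ (X : Module.End (AlgebraicClosure F) (ι → AlgebraicClosure F)) = _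
    rw [hc, frE_smul, frE_one]

end app

/-! ### cen, and the lower bound for `|Ω / Z|` -/

section misc

/-- a group with an injection `F → G` with no nontrivial central element in the image: `|F| ≤ |G / Z|` -/
theorem card_le_quot {F : Type*} [AddGroup F] {G : Type*} [Group G] [Finite G] (x : F → G)
    (hadd : ∀ s t, x (s + t) = x s * x t) (hx : ∀ t, x t ∈ Subgroup.center G → t = 0) :
    Nat.card F ≤ Nat.card (G ⧸ Subgroup.center G) := by
  refine Nat.card_le_card_of_injective (fun t => (x t : G ⧸ Subgroup.center G)) ?_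
  intro s t h
  have h1 : (x s)⁻¹ * x t ∈ Subgroup.center G := QuotientGroup.eq.1 h
  have h0 : x 0 = 1 := by
    have := hadd 0 0
    rw [add_zero] at this
    exact mul_eq_left.1 this.symm
  have h2 : (x s)⁻¹ = x (-s) := by
    rw [inv_eq_iff_mul_eq_one, ← hadd, add_neg_cancel, h0]
  rw [h2, ← hadd] at h1
  have h3 := hx _ h1
  rwa [neg_add_eq_zero] at h3

/-- scalars act trivially -/
theorem ad_eq_one {K : Type*} [Field K] {V : Type*} [AddCommGroup V] [Module K V] {G : Type*} [Group G]
    {ρ : G →* Module.End K V} {z : G} {c : K} (h : ρ z = c • 1) : ad ρ z = 1 := by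
  refine LinearMap.ext fun X => ?_
  rw [ad_apply, h, smul_mul_assoc, one_mul, ← mul_one X]
  have h1 : X * 1 * ρ z⁻¹ = X * ρ z⁻¹ := by rw [mul_one]
  have h2 : ρ z * ρ z⁻¹ = 1 := by rw [← map_mul, mul_inv_cancel, map_one]
  rw [h, smul_mul_assoc, one_mul] at h2
  rw [smul_mul_assoc, h1, ← mul_smul_comm, h2]
  simp

end misc

end Cfsg.Agent.H748.BR
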